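/-
The functor `a ↦ O(C_G(a))` for the prime 2 on a 2-subgroup with a normal elementary abelian
subgroup of rank at least 3: the generated subgroups of the four-groups all agree.
-/
import Cfsg.Agent.Lib.EqFun.Basic
import Cfsg.Agent.Lib.Core.PSolvable2
import Cfsg.Agent.Lib.CharP.Inherit
import Cfsg.Agent.Lib.Signal.BalanceFor
import Cfsg.Agent.Lib.PGroups.Basic

set_option autoImplicit false
set_option linter.unusedSectionVars false

namespace Cfsg.Agent.Lib.CoreFun.Basic

open Subgroup Cfsg Cfsg.Agent.Lib.Core.Basic Cfsg.Agent.Lib.EqFun.Basic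
  Cfsg.Agent.Lib.Core.PSolvable2

universe u

variable {G : Type u} [Group G] [Finite G]

/-- The functor of odd cores. -/
abbrev th (a : G) : Subgroup G := centralizerPPrimeCore 2 a

/-- The functor is a signalizer functor, given solvability and balance. -/
theorem fun_th (hFT : ∀ a : G, Group.IsSolvable ↥(th a))
    (hbal : ∀ a b : G, orderOf a = 2 → orderOf b = 2 → a * b = b * a →
      th a ⊓ centralizer {b} ≤ th b) : Fun 2 (th (G := G)) := by
  refine ⟨?_, ?_, ?_⟩
  · intro a _
    refine ⟨centralizerPPrimeCore_le_centralizer a, ?_, hFT a⟩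
    exact (Nat.Prime.coprime_iff_not_dvd Nat.prime_two).mp
      (coprime_card_centralizerPPrimeCore (p := 2) a).symm
  · intro a g _
    apply le_antisymm
    · intro h hh
      refine ⟨g⁻¹ * h * g, ?_, by simp [mul_assoc]⟩
      have := Cfsg.Agent.Lib.Signal.BalanceFor.conj_mem_centralizerCore (p := 2) (g := g⁻¹) hh
      simpa [mul_assoc] using this
    · rintro _ ⟨h, hh, rfl⟩
      exact Cfsg.Agent.Lib.Signal.BalanceFor.conj_mem_centralizerCore hh
  · intro a b ha hb hab
    exact hbal a b ha.1 hb.1 hab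

variable {θ : G → Subgroup G}

/-- Two commuting elementary abelian subgroups of order at least `p²` have the same closure. -/
theorem W_eq_of_comm {p : ℕ} [Fact p.Prime] (hS : SSFTOn G p) (F : Fun p θ) {X Y : Subgroup G}
    (hX : EA p X) (hY : EA p Y) (hX2 : p ^ 2 ≤ Nat.card X) (hY2 : p ^ 2 ≤ Nat.card Y)
    (hc : ∀ a ∈ X, ∀ b ∈ Y, a * b = b * a) : W θ X = W θ Y := by
  have hEA := hX.sup hY hc
  by_cases h3 : p ^ 3 ≤ Nat.card ↥(X ⊔ Y)
  · rw [W_eq hS F hEA h3 le_sup_left hX2, W_eq hS F hEA h3 le_sup_right hY2]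
  · have h4 : Nat.card ↥(X ⊔ Y) ≤ p ^ 2 := by
      by_contra h5
      push Not at h5
      exact h3 (hEA.card_pow h5)
    have e1 : X = X ⊔ Y := Subgroup.eq_of_le_of_card_ge le_sup_left (h4.trans hX2)
    have e2 : Y = X ⊔ Y := Subgroup.eq_of_le_of_card_ge le_sup_right (h4.trans hY2)
    rw [e1.trans e2.symm]

theorem ea_zpowers {u : G} (hu : u ^ 2 = 1) : EA 2 (zpowers u) := by
  refine ⟨?_, ?_⟩
  · intro a ha b hb
    obtain ⟨i, rfl⟩ := mem_zpowers_iff.mp ha
    obtain ⟨j, rfl⟩ := mem_zpowers_iff.mp hb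
    exact (Commute.refl u).zpow_zpow i j
  · intro a ha
    obtain ⟨i, rfl⟩ := mem_zpowers_iff.mp ha
    rw [← zpow_natCast, ← zpow_mul, mul_comm, zpow_mul]
    simp [hu]

theorem card_zpowers_le {u : G} (hu : u ^ 2 = 1) : Nat.card (zpowers u) ≤ 2 := by
  rw [Nat.card_zpowers]
  exact Nat.le_of_dvd (by norm_num) (orderOf_dvd_of_pow_eq_one hu)

/-- The join of two commuting involutions' groups, one outside the other, is a four-group at least. -/
theorem ea_two {z u : G} (hz : z ^ 2 = 1) (hu : u ^ 2 = 1) (hc : z * u = u * z) :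
    EA 2 (zpowers z ⊔ zpowers u) := by
  refine (ea_zpowers hz).sup (ea_zpowers hu) ?_
  intro a ha b hb
  obtain ⟨i, rfl⟩ := mem_zpowers_iff.mp ha
  obtain ⟨j, rfl⟩ := mem_zpowers_iff.mp hb
  exact (Commute.zpow_zpow (show Commute z u from hc) i j)

theorem four_le_of_lt {E : Subgroup G} (hE : EA 2 E) {z u : G} (hzE : z ∈ E) (hz : z ^ 2 = 1)
    (hz1 : z ≠ 1) (hu : u ∈ E) (huz : u ∉ zpowers z) : 2 ^ 2 ≤ Nat.card E := by
  have hlt : zpowers z < E := by
    refine lt_of_le_of_ne (zpowers_le.mpr hzE) ?_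
    rintro rfl
    exact huz hu
  have hcard : Nat.card (zpowers z) < Nat.card E := by
    by_contra h
    push Not at h
    exact hlt.ne (Subgroup.eq_of_le_of_card_ge hlt.le h)
  have h2 : 2 ≤ Nat.card (zpowers z) := by
    rw [Nat.card_zpowers]
    have h3 : orderOf z ∣ 2 := orderOf_dvd_of_pow_eq_one hz
    have h4 : orderOf z ≠ 1 := by
      rw [Ne, orderOf_eq_one_iff]; exact hz1
    have h5 : 0 < orderOf z := orderOf_pos_iff.mpr (isOfFinOrder_iff_pow_eq_one.mpr ⟨2, by norm_num, hz⟩)
    omega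
  exact hE.card_pow (k := 1) (by omega)

/-- The counting step: an involution normalizing an elementary abelian group of order at least 8
centralizes an element outside a given subgroup of order 2. -/
theorem exists_commute {E : Subgroup G} (hE : EA 2 E) (h3 : 2 ^ 3 ≤ Nat.card E) {z u : G}
    (hz : z ^ 2 = 1) (hu : u ^ 2 = 1) (hn : u ∈ normalizer (E : Set G)) :
    ∃ a ∈ E, a ∉ zpowers z ∧ a * u = u * a := by
  by_contra hcon
  push Not at hcon
  have hconj : ∀ a ∈ E, u * a * u⁻¹ ∈ E := fun a ha => (mem_normalizer_iff.mp hn a).mp ha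
  have huinv : u⁻¹ = u := by
    have : u * u = 1 := by rw [← pow_two]; exact hu
    exact inv_eq_of_mul_eq_one_left this
  let φ : E →* E :=
    { toFun := fun a => a * ⟨u * a * u⁻¹, hconj a a.2⟩
      map_one' := by
        apply Subtype.ext
        simp
      map_mul' := by
        intro a b
        apply Subtype.ext
        have hab : ∀ x ∈ E, ∀ y ∈ E, x * y = y * x := hE.comm
        simp only [Subgroup.coe_mul]
        have h1 := hab (u * b * u⁻¹) (hconj b b.2) (u * a * u⁻¹) (hconj a a.2)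
        have h2 := hab b b.2 (u * a * u⁻¹) (hconj a a.2)
        calc (a : G) * b * (u * (a * b) * u⁻¹)
            = a * b * ((u * a * u⁻¹) * (u * b * u⁻¹)) := by group
          _ = a * (b * (u * a * u⁻¹)) * (u * b * u⁻¹) := by group
          _ = a * ((u * a * u⁻¹) * b) * (u * b * u⁻¹) := by rw [h2]
          _ = _ := by group }
  have hφ : ∀ a : E, (φ a : G) = a * (u * a * u⁻¹) := fun a => rfl
  -- anything fixed by `u` lies in `⟨z⟩`
  have hfix : ∀ a ∈ E, a * u = u * a → a ∈ zpowers z := by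
    intro a ha hau
    by_contra h
    exact hcon a ha h hau
  let Z : Subgroup E := (zpowers z).subgroupOf E
  have hZ : Nat.card Z ≤ 2 := by
    have h1 : Nat.card Z ≤ Nat.card (zpowers z) :=
      Nat.card_le_card_of_injective (fun x : Z => (⟨(x : E), mem_subgroupOf.mp x.2⟩ : zpowers z))
        (fun x y h => by
          apply Subtype.ext
          apply Subtype.ext
          exact congrArg (fun t : zpowers z => (t : G)) h)
    exact h1.trans (card_zpowers_le hz)
  have hker : φ.ker ≤ Z := by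
    intro a ha
    have h1 : (φ a : G) = 1 := by
      rw [MonoidHom.mem_ker] at ha
      rw [ha]
      rfl
    rw [hφ] at h1
    have h2 : u * (a : G) * u⁻¹ = (a : G)⁻¹ := eq_inv_of_mul_eq_one_right h1
    have h3 : (a : G)⁻¹ = a := by
      have := hE.exp a a.2
      exact inv_eq_of_mul_eq_one_left (by rw [← pow_two]; exact this)
    rw [h3] at h2
    refine mem_subgroupOf.mpr (hfix a a.2 ?_)
    calc (a : G) * u = (u * a * u⁻¹) * u := by rw [h2]
      _ = u * a := by group
  have hrange : φ.range ≤ Z := by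
    rintro _ ⟨a, rfl⟩
    refine mem_subgroupOf.mpr (hfix _ (φ a).2 ?_)
    rw [hφ]
    have h1 : (u * (a : G) * u⁻¹) * (a : G) = (a : G) * (u * (a : G) * u⁻¹) :=
      hE.comm _ (hconj a a.2) _ a.2
    calc (a : G) * (u * a * u⁻¹) * u = (a : G) * u * a := by group
      _ = u * (u * a * u⁻¹) * a := by
          rw [huinv]
          have : u * (u * (a : G) * u) = a * u := by
            calc u * (u * (a : G) * u) = (u * u) * a * u := by group
              _ = a * u := by rw [← pow_two, hu]; group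
          rw [this]
      _ = u * ((u * a * u⁻¹) * a) := by group
      _ = u * (a * (u * a * u⁻¹)) := by rw [h1]
  have hcardker : Nat.card φ.ker ≤ 2 := (Subgroup.card_le_of_le hker).trans hZ
  have hcardrange : Nat.card φ.range ≤ 2 := (Subgroup.card_le_of_le hrange).trans hZ
  have hmul : Nat.card φ.ker * Nat.card φ.range = Nat.card E := by
    rw [← Subgroup.index_ker]
    exact Subgroup.card_mul_index _
  have : Nat.card E ≤ 4 := by
    rw [← hmul]
    exact Nat.mul_le_mul hcardker hcardrange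
  norm_num at h3
  omega

/-- A 2-element power: every non-identity 2-element has an involution among its powers. -/
theorem exists_involution_power {b : G} (hb2 : ∃ k : ℕ, b ^ 2 ^ k = 1)
    (hb1 : b ≠ 1) : ∃ y : G, y ∈ zpowers b ∧ orderOf y = 2 := by
  obtain ⟨k, hk⟩ := hb2
  have hprime : Fact (Nat.Prime 2) := ⟨Nat.prime_two⟩
  obtain ⟨m, hm⟩ : ∃ m : ℕ, orderOf b = 2 ^ m :=
    ⟨_, (Nat.dvd_prime_pow Nat.prime_two).mp (orderOf_dvd_of_pow_eq_one hk) |>.choose_spec.2⟩
  have hm0 : m ≠ 0 := by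
    rintro rfl
    rw [pow_zero, orderOf_eq_one_iff] at hm
    exact hb1 hm
  obtain ⟨n, rfl⟩ : ∃ n, m = n + 1 := Nat.exists_eq_succ_of_ne_zero hm0
  refine ⟨b ^ 2 ^ n, npow_mem_zpowers _ _, ?_⟩
  rw [orderOf_pow' b (by positivity), hm]
  have : (2 ^ (n + 1)).gcd (2 ^ n) = 2 ^ n := by
    apply Nat.gcd_eq_right
    exact pow_dvd_pow 2 (Nat.le_succ n)
  rw [this, pow_succ]
  exact Nat.mul_div_cancel_left 2 (by positivity)

section Main

variable {S E : Subgroup G}

theorem S_mem_of_E {x : G} (hSE : E ≤ S) (hx : x ∈ E) : x ∈ S := hSE hx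

/-- A normal non-trivial subgroup of a 2-group meets the center. -/
theorem exists_central_of_normal (hSp : IsPGroup 2 S) (hSE : E ≤ S)
    (hEn : S ≤ normalizer (E : Set G)) (hE1 : E ≠ ⊥) :
    ∃ z : G, z ≠ 1 ∧ z ∈ E ∧ ∀ s ∈ S, z * s = s * z := by
  have hprime : Fact (Nat.Prime 2) := ⟨Nat.prime_two⟩
  have hn : (E.subgroupOf S).Normal := by
    constructor
    intro n hn g
    rw [mem_subgroupOf] at hn ⊢
    exact (mem_normalizer_iff.mp (hEn g.2) n).mp hn
  have hne : E.subgroupOf S ≠ ⊥ := by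
    intro h
    rw [Subgroup.subgroupOf_eq_bot] at h
    exact hE1 (h.eq_bot_of_le hSE)
  obtain ⟨z, hzE, hzc, hzo⟩ :=
    Cfsg.Agent.Lib.PGroups.Basic.exists_central_orderOf_eq hSp (E.subgroupOf S) hne
  refine ⟨z, ?_, mem_subgroupOf.mp hzE, ?_⟩
  · intro h
    have h1 : z = 1 := Subtype.ext h
    rw [h1, orderOf_one] at hzo
    omega
  · intro s hs
    have := mem_center_iff.mp hzc ⟨s, hs⟩
    exact (congrArg Subtype.val this).symm

/-- The main connectivity: every four-group of the 2-group `S` gives the closure of `E`. -/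
theorem W_eq_of_le (hS : SSFTOn G 2) (F : Fun 2 θ) (hEn : S ≤ normalizer (E : Set G))
    (hE : EA 2 E) (h3 : 2 ^ 3 ≤ Nat.card E) {z : G} (hzE : z ∈ E) (hz1 : z ≠ 1)
    (hzS : ∀ s ∈ S, z * s = s * z) {U : Subgroup G} (hUS : U ≤ S) (hU : EA 2 U)
    (hU2 : 2 ^ 2 ≤ Nat.card U) : W θ U = W θ E := by
  have hz : z ^ 2 = 1 := hE.exp z hzE
  -- an element of `U` outside `⟨z⟩`
  obtain ⟨u, huU, huz⟩ : ∃ u ∈ U, u ∉ zpowers z := by
    by_contra hcon
    push Not at hcon
    have h1 : U ≤ zpowers z := hcon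
    have h2 := (Subgroup.card_le_of_le h1).trans (card_zpowers_le hz)
    norm_num at hU2
    omega
  have hu : u ^ 2 = 1 := hU.exp u huU
  have hzu : z * u = u * z := hzS u (hUS huU)
  -- an element of `E` outside `⟨z⟩`, commuting with `u`
  obtain ⟨a, haE, haz, hau⟩ := exists_commute hE h3 hz hu (hEn (hUS huU))
  have hazc : z * a = a * z := hE.comm z hzE a haE
  have ha : a ^ 2 = 1 := hE.exp a haE
  have hX := ea_two hz hu hzu
  have hY := ea_two hz ha hazc
  have hX2 : 2 ^ 2 ≤ Nat.card ↥(zpowers z ⊔ zpowers u) :=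
    four_le_of_lt hX (mem_sup_left (mem_zpowers z)) hz hz1 (mem_sup_right (mem_zpowers u)) huz
  have hY2 : 2 ^ 2 ≤ Nat.card ↥(zpowers z ⊔ zpowers a) :=
    four_le_of_lt hY (mem_sup_left (mem_zpowers z)) hz hz1 (mem_sup_right (mem_zpowers a)) haz
  have e1 : W θ U = W θ (zpowers z ⊔ zpowers u) := by
    refine W_eq_of_comm hS F hU hX hU2 hX2 ?_
    intro s hs t ht
    have hUz : EA 2 (U ⊔ zpowers z) := hU.sup (ea_zpowers hz) (by
      intro x hx y hy
      obtain ⟨i, rfl⟩ := mem_zpowers_iff.mp hy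
      exact ((show Commute z x from hzS x (hUS hx)).zpow_left i).eq.symm)
    have ht' : t ∈ U ⊔ zpowers z := by
      have : zpowers z ⊔ zpowers u ≤ U ⊔ zpowers z :=
        sup_le le_sup_right (le_trans (zpowers_le.mpr huU) le_sup_left)
      exact this ht
    exact hUz.comm s (mem_sup_left hs) t ht'
  have e2 : W θ (zpowers z ⊔ zpowers u) = W θ (zpowers z ⊔ zpowers a) := by
    refine W_eq_of_comm hS F hX hY hX2 hY2 ?_
    intro s hs t ht
    have hall : EA 2 (zpowers z ⊔ zpowers u ⊔ zpowers a) := hX.sup (ea_zpowers ha) (by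
      intro x hx y hy
      obtain ⟨i, rfl⟩ := mem_zpowers_iff.mp hy
      have : x ∈ centralizer ({a} : Set G) := by
        have hle : zpowers z ⊔ zpowers u ≤ centralizer ({a} : Set G) := by
          apply sup_le
          · rw [zpowers_le, mem_centralizer_iff]
            rintro _ rfl
            exact hazc.symm
          · rw [zpowers_le, mem_centralizer_iff]
            rintro _ rfl
            exact hau
        exact hle hx
      have hx' : a * x = x * a := mem_centralizer_iff.mp this a rfl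
      exact ((show Commute a x from hx').zpow_left i).eq.symm)
    refine hall.comm s (mem_sup_left hs) t ?_
    have : zpowers z ⊔ zpowers a ≤ zpowers z ⊔ zpowers u ⊔ zpowers a :=
      sup_le (le_trans le_sup_left le_sup_left) le_sup_right
    exact this ht
  have e3 : W θ (zpowers z ⊔ zpowers a) = W θ E :=
    W_eq hS F hE h3 (sup_le (zpowers_le.mpr hzE) (zpowers_le.mpr haE)) hY2
  rw [e1, e2, e3]

/-- Main result on a 2-subgroup `S` with a normal elementary abelian subgroup `E` of order at least 8,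
given balance for commuting non-identity 2-elements. -/
theorem main_of_normal (hS : SSFTOn G 2) (hFT : ∀ a : G, Group.IsSolvable ↥(th a))
    (hbal : ∀ a b : G, (∃ k : ℕ, a ^ 2 ^ k = 1) → (∃ k : ℕ, b ^ 2 ^ k = 1) → b ≠ 1 → a * b = b * a →
      th a ⊓ centralizer {b} ≤ th b)
    (hSp : IsPGroup 2 S) (hSE : E ≤ S) (hEn : S ≤ normalizer (E : Set G))
    (hE : EA 2 E) (h3 : 2 ^ 3 ≤ Nat.card E) :
    Odd (Nat.card ↥(W (th (G := G)) E)) ∧ ∀ B : Subgroup G, B ≤ S →
      (∃ U : Subgroup G, U ≤ B ∧ EA 2 U ∧ 2 ^ 2 ≤ Nat.card U) →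
      W (th (G := G)) E = W (th (G := G)) B ∧
        normalizer (B : Set G) ≤ normalizer (W (th (G := G)) E : Set G) := by
  have F : Fun 2 (th (G := G)) := fun_th hFT (fun a b ha hb hab =>
    hbal a b ⟨1, by simpa [← ha] using pow_orderOf_eq_one a⟩
      ⟨1, by simpa [← hb] using pow_orderOf_eq_one b⟩
      (by intro h; rw [h, orderOf_one] at hb; omega) hab)
  have hodd : Odd (Nat.card ↥(W (th (G := G)) E)) :=
    Nat.not_even_iff_odd.mp (fun h => (closure_spec hS F hE h3).1 h.two_dvd)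
  -- a central involution
  have hprime : Fact (Nat.Prime 2) := ⟨Nat.prime_two⟩
  obtain ⟨z, hzE, hz1, hzS⟩ : ∃ z ∈ E, z ≠ 1 ∧ ∀ s ∈ S, z * s = s * z := by
    obtain ⟨z, hz1, hzE, hzS⟩ := exists_central_of_normal hSp hSE hEn (by
      intro h
      rw [h, Subgroup.card_bot] at h3
      norm_num at h3)
    exact ⟨z, hzE, hz1, hzS⟩
  have hz : z ^ 2 = 1 := hE.exp z hzE
  have hUall : ∀ U : Subgroup G, U ≤ S → EA 2 U → 2 ^ 2 ≤ Nat.card U →
      W (th (G := G)) U = W (th (G := G)) E :=
    fun U hUS hU hU2 => W_eq_of_le hS F hEn hE h3 hzE hz1 hzS hUS hU hU2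
  -- every involution of `S` has its core inside the closure
  have hinv : ∀ y ∈ S, orderOf y = 2 → th y ≤ W (th (G := G)) E := by
    intro y hyS hy
    have hy2 : y ^ 2 = 1 := by rw [← hy]; exact pow_orderOf_eq_one y
    by_cases hyz : y ∈ zpowers z
    · -- `y = z`
      have hyz' : y = z := by
        obtain ⟨i, rfl⟩ := mem_zpowers_iff.mp hyz
        rcases Int.even_or_odd i with ⟨j, rfl⟩ | ⟨j, rfl⟩
        · exfalso
          rw [← two_mul, zpow_mul] at hy
          have : z ^ (2 : ℤ) = 1 := by exact_mod_cast hz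
          rw [this, one_zpow, orderOf_one] at hy
          omega
        · have : z ^ (2 : ℤ) = 1 := by exact_mod_cast hz
          rw [zpow_add, zpow_mul, this, one_zpow, one_mul, zpow_one]
      rw [hyz']
      exact le_W _ hzE hz1
    · have hX := ea_two hz hy2 (hzS y hyS)
      have hX2 : 2 ^ 2 ≤ Nat.card ↥(zpowers z ⊔ zpowers y) :=
        four_le_of_lt hX (mem_sup_left (mem_zpowers z)) hz hz1 (mem_sup_right (mem_zpowers y)) hyz
      have hXS : zpowers z ⊔ zpowers y ≤ S :=
        sup_le (zpowers_le.mpr (S_mem_of_E hSE hzE)) (zpowers_le.mpr hyS)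
      rw [← hUall _ hXS hX hX2]
      have hy1 : y ≠ 1 := by
        intro h
        rw [h, orderOf_one] at hy
        omega
      exact le_W _ (mem_sup_right (mem_zpowers y)) hy1
  refine ⟨hodd, ?_⟩
  intro B hBS ⟨U, hUB, hU, hU2⟩
  have hEB : W (th (G := G)) E = W (th (G := G)) B := by
    apply le_antisymm
    · rw [← hUall U (hUB.trans hBS) hU hU2]
      apply iSup_le
      rintro ⟨a, ha, ha1⟩
      exact le_W _ (hUB ha) ha1
    · apply iSup_le
      rintro ⟨b, hb, hb1⟩
      have hbS := hBS hb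
      have hb2 : ∃ k : ℕ, b ^ 2 ^ k = 1 := by
        obtain ⟨k, hk⟩ := hSp ⟨b, hbS⟩
        exact ⟨k, by simpa using congrArg Subtype.val hk⟩
      obtain ⟨y, hyb, hy⟩ := exists_involution_power hb2 hb1
      have hyS : y ∈ S := (zpowers_le.mpr hbS) hyb
      have hy1 : y ≠ 1 := by
        intro h
        rw [h, orderOf_one] at hy
        omega
      have hby : b * y = y * b := by
        obtain ⟨i, rfl⟩ := mem_zpowers_iff.mp hyb
        exact ((Commute.refl b).zpow_right i).eq
      have h1 : th b ≤ th y := by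
        intro t ht
        apply hbal b y hb2 ⟨1, by simpa [← hy] using pow_orderOf_eq_one y⟩ hy1 hby
        refine mem_inf.mpr ⟨ht, ?_⟩
        have htb : t ∈ centralizer ({b} : Set G) := centralizerPPrimeCore_le_centralizer b ht
        have htb' : t * b = b * t := (mem_centralizer_iff.mp htb b rfl).symm
        rw [mem_centralizer_iff]
        rintro _ rfl
        obtain ⟨i, rfl⟩ := mem_zpowers_iff.mp hyb
        exact ((show Commute t b from htb').zpow_right i).eq.symm
      exact h1.trans (hinv y hyS hy)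
  refine ⟨hEB, ?_⟩
  rw [hEB]
  intro g hg
  apply mem_normalizer_fintype
  intro n hn
  have h1 : W (th (G := G)) B ≤ (W (th (G := G)) B).comap (MulAut.conj g).toMonoidHom := by
    apply iSup_le
    rintro ⟨b, hb, hb1⟩ t ht
    have h2 : g * b * g⁻¹ ∈ B := (mem_normalizer_iff.mp hg b).mp hb
    have h3 : g * b * g⁻¹ ≠ 1 := by
      intro h
      apply hb1
      have := congrArg (fun x => g⁻¹ * x * g) h
      simpa [mul_assoc] using this
    exact le_W _ h2 h3 (Cfsg.Agent.Lib.Signal.BalanceFor.conj_mem_centralizerCore ht)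
  exact h1 hn

/-- Balance when centralizers are 2-constrained. -/
theorem bal_of_h2c
    (h2c : ∀ T : Subgroup G, IsPGroup 2 T → T ≠ ⊥ → IsPConstrained 2 ↥(normalizer (T : Set G)))
    (a b : G) (ha : ∃ k : ℕ, a ^ 2 ^ k = 1) (hb : ∃ k : ℕ, b ^ 2 ^ k = 1) (hb1 : b ≠ 1)
    (hab : a * b = b * a) : th a ⊓ centralizer {b} ≤ th b := by
  have hprime : Fact (Nat.Prime 2) := ⟨Nat.prime_two⟩
  have hT : IsPGroup 2 (zpowers b) := by
    obtain ⟨k, hk⟩ := hb
    have hdvd : Nat.card (zpowers b) ∣ 2 ^ k := by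
      rw [Nat.card_zpowers]
      exact orderOf_dvd_of_pow_eq_one hk
    exact IsPGroup.of_card_dvd_pow hdvd
  have hT1 : zpowers b ≠ ⊥ := by
    intro h
    rw [zpowers_eq_bot] at h
    exact hb1 h
  have h1 := h2c (zpowers b) hT hT1
  have h2 : IsPConstrained 2 ↥(centralizer ({b} : Set G)) := by
    refine Cfsg.Agent.Lib.CharP.Inherit.isPConstrained_of_le_normal h1
      (Cfsg.Agent.Lib.Signal.BalanceFor.centralizer_le_normalizer_zpowers b) ?_
    intro y hy w hw
    rw [mem_centralizer_iff]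
    intro c hc
    have hc' : c = b := hc
    rw [hc']
    have h3 : y⁻¹ * b * y ∈ zpowers b := by
      have := (mem_normalizer_iff.mp hy (y⁻¹ * b * y)).mpr (by
        have : y * (y⁻¹ * b * y) * y⁻¹ = b := by group
        rw [this]
        exact mem_zpowers b)
      exact this
    obtain ⟨i, hi⟩ := mem_zpowers_iff.mp h3
    have hwb : b * w = w * b := mem_centralizer_iff.mp hw b rfl
    have h4 : w * (y⁻¹ * b * y) = (y⁻¹ * b * y) * w := by
      rw [← hi]
      exact (((show Commute b w from hwb).zpow_left i).eq).symm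
    calc b * (y * w * y⁻¹) = y * ((y⁻¹ * b * y) * w) * y⁻¹ := by group
      _ = y * (w * (y⁻¹ * b * y)) * y⁻¹ := by rw [h4]
      _ = _ := by group
  exact centralizerPPrimeCore_inf_le ha hab h2

/-- The result on the four-groups of a Sylow group. -/
theorem s3110_of (hS : SSFTOn G 2) (hFT : ∀ a : G, Group.IsSolvable ↥(th a))
    (h2c : ∀ T : Subgroup G, IsPGroup 2 T → T ≠ ⊥ → IsPConstrained 2 ↥(normalizer (T : Set G)))
    (S S' : Subgroup G) (g : G) (hS' : S' = S.map (MulAut.conj g).toMonoidHom)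
    (hSp : IsPGroup 2 S) (A : Subgroup S) (hAn : A.Normal) (hAab : IsMulCommutative A)
    (hA3 : ¬ PRankLE 2 2 A) :
    ∃ W' : Subgroup G, Odd (Nat.card ↥W') ∧
      ∀ B : Subgroup G, B ≤ S' → ¬ PRankLE 2 1 ↥B →
        W' = (⨆ b : {b : G // b ∈ B ∧ b ≠ 1}, centralizerPPrimeCore 2 (b : G)) ∧
        normalizer (B : Set G) ≤ normalizer (W' : Set G) := by
  classical
  have hprime : Fact (Nat.Prime 2) := ⟨Nat.prime_two⟩
  -- the rank 3 subgroup
  unfold PRankLE at hA3
  push Not at hA3
  obtain ⟨D, hDc, hDe, hD3⟩ := hA3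
  let Ω : Subgroup A :=
    { carrier := {a | a ^ 2 = 1}
      one_mem' := one_pow 2
      inv_mem' := by
        intro a ha
        change a ^ 2 = 1 at ha
        change a⁻¹ ^ 2 = 1
        rw [inv_pow]
        simp [ha]
      mul_mem' := by
        intro a b ha hb
        change a ^ 2 = 1 at ha
        change b ^ 2 = 1 at hb
        change (a * b) ^ 2 = 1
        have hc : a * b = b * a := hAab.is_comm.comm a b
        rw [(show Commute a b from hc).mul_pow, ha, hb, one_mul] }
  have hDΩ : D ≤ Ω := fun a ha => hDe a ha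
  let f : A →* G := (MulAut.conj g).toMonoidHom.comp (S.subtype.comp A.subtype)
  have hf : Function.Injective f := by
    intro a b hab
    have h1 : g * (a : S) * g⁻¹ = g * (b : S) * g⁻¹ := hab
    have h2 : ((a : S) : G) = (b : S) := by simpa using h1
    exact Subtype.ext (Subtype.ext h2)
  have hfa : ∀ a : A, f a = g * (a : S) * g⁻¹ := fun a => rfl
  let E : Subgroup G := Ω.map f
  have hEcard : 2 ^ 3 ≤ Nat.card E := by
    have h1 : Nat.card E = Nat.card Ω :=
      (Nat.card_congr (Ω.equivMapOfInjective f hf).toEquiv).symm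
    rw [h1]
    have h2 : Nat.card D ≤ Nat.card Ω := Subgroup.card_le_of_le hDΩ
    have h3 : (2 : ℕ) ^ 2 < Nat.card Ω := lt_of_lt_of_le hD3 h2
    have hΩ : IsPGroup 2 Ω := by
      intro a
      exact ⟨1, Subtype.ext (Subtype.ext (Subtype.ext (by
        have := a.2
        have h4 : (a : A) ^ 2 = 1 := this
        have h5 := congrArg (fun x : A => ((x : S) : G)) h4
        simpa using h5)))⟩
    obtain ⟨n, hn⟩ := IsPGroup.iff_card.mp hΩ
    rw [hn] at h3 ⊢
    exact Nat.pow_le_pow_right (by norm_num) ((Nat.pow_lt_pow_iff_right (by norm_num)).mp h3)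
  have hE : EA 2 E := by
    refine ⟨?_, ?_⟩
    · rintro _ ⟨a, _, rfl⟩ _ ⟨b, _, rfl⟩
      rw [← map_mul, ← map_mul, hAab.is_comm.comm a b]
    · rintro _ ⟨a, ha, rfl⟩
      rw [← map_pow, show a ^ 2 = 1 from ha, map_one]
  have hES : E ≤ S' := by
    rw [hS']
    rintro _ ⟨a, _, rfl⟩
    exact ⟨(a : S), (a : S).2, rfl⟩
  have hEn : S' ≤ normalizer (E : Set G) := by
    rw [hS']
    rintro _ ⟨s, hs, rfl⟩
    apply mem_normalizer_fintype
    rintro _ ⟨a, ha, rfl⟩
    let s' : S := ⟨s, hs⟩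
    have hc : s' * (a : S) * s'⁻¹ ∈ A := hAn.conj_mem _ a.2 s'
    let a' : A := ⟨_, hc⟩
    refine ⟨a', ?_, ?_⟩
    · change a' ^ 2 = 1
      apply Subtype.ext
      have h4 : (a : A) ^ 2 = 1 := ha
      have h5 : (a : S) ^ 2 = 1 := by
        have := congrArg (fun x : A => (x : S)) h4
        simpa using this
      change (s' * (a : S) * s'⁻¹) ^ 2 = 1
      rw [conj_pow, h5]
      simp
    · change g * (s * ((a : S) : G) * s⁻¹) * g⁻¹ = _
      simp only [MulEquiv.toMonoidHom_eq_coe, MonoidHom.coe_coe, MulAut.conj_apply, hfa]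
      group
  have hSp' : IsPGroup 2 S' := by
    rw [hS']
    exact hSp.map _
  obtain ⟨hodd, hmain⟩ := main_of_normal hS hFT (bal_of_h2c h2c) hSp' hES hEn hE hEcard
  refine ⟨W th E, hodd, ?_⟩
  intro B hBS hB2
  unfold PRankLE at hB2
  push Not at hB2
  obtain ⟨D', hD'c, hD'e, hD'3⟩ := hB2
  have hU : EA 2 (D'.map B.subtype) := by
    refine ⟨?_, ?_⟩
    · rintro _ ⟨a, ha, rfl⟩ _ ⟨b, hb, rfl⟩
      have := hD'c.is_comm.comm ⟨a, ha⟩ ⟨b, hb⟩
      have h3 := congrArg (fun x : D' => ((x : B) : G)) this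
      simpa using h3
    · rintro _ ⟨a, ha, rfl⟩
      have := hD'e a ha
      have h3 := congrArg (fun x : B => (x : G)) this
      simpa using h3
  have h4 : 2 ^ 2 ≤ Nat.card ↥(D'.map B.subtype) := by
    have h1 : Nat.card ↥(D'.map B.subtype) = Nat.card D' :=
      (Nat.card_congr (D'.equivMapOfInjective B.subtype B.subtype_injective).toEquiv).symm
    refine hU.card_pow (k := 1) ?_
    rw [h1]
    simpa using hD'3
  exact hmain B hBS ⟨D'.map B.subtype, map_subtype_le _, hU, h4⟩

end Main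

end Cfsg.Agent.Lib.CoreFun.Basic
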