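/-
When an involution `z` acts on `L` so that `L/O(L)` has all components moved by `z`, and all conjugates of `z`
act alike on `O(L)`, the layer of `L/O(L)` is trivial as soon as the layer of `L` is: `L` is 2-constrained.
-/
import Cfsg.Agent.Lib.CoreFun.Basic
import Cfsg.Agent.Lib.Components.GenFitting
import Cfsg.Agent.Lib.Components.Central
import Cfsg.Agent.Lib.LBalance.Basic
import Cfsg.Agent.Lib.Core.Balance
import Cfsg.Agent.Lib.LocalStruct.SCNOdd

set_option autoImplicit false
set_option linter.unusedSectionVars false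

namespace Cfsg.Agent.Lib.CoreFun.NoLayer

open Subgroup Cfsg Cfsg.Agent.Lib.Core.Basic Cfsg.Agent.Lib.Components.Basic
  Cfsg.Agent.Lib.Core.Constrained Cfsg.Agent.Lib.Core.Balance Cfsg.Agent.Lib.Core.CoprimeMap
  Cfsg.Agent.Lib.Core.PSolvable2

universe u

section Quot

variable {L : Type u} [Group L] [Finite L]

local instance hprime2 : Fact (Nat.Prime 2) := ⟨Nat.prime_two⟩

/-- A group of characteristic 2 has no component. -/
theorem not_component_of_isCharP {X : Type u} [Group X] [Finite X] (hX : IsCharP 2 X)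
    {J : Subgroup X} (hJ : IsComponent J) : False := by
  have hnil : Group.IsNilpotent ↥(pCore 2 X) := (pCore_isPGroup : IsPGroup 2 (pCore 2 X)).isNilpotent
  have h1 := component_commutator_normal_nilpotent hJ (pCore_normal 2 X) hnil
  have h2 : J ≤ centralizer (pCore 2 X : Set X) := by
    rw [Subgroup.le_centralizer_iff]
    exact (commutator_eq_bot_iff_le_centralizer).mp (by rw [commutator_comm]; exact h1)
  exact quasisimple_not_nilpotent hJ.2 (nilpotent_of_subgroup_le (h2.trans hX) hnil)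

/-- `z` does not centralize a component of `L/O(L)`, when `C_L(z)` has characteristic 2 and meets
`O(L)` trivially. -/
theorem commutator_ne_bot {z : L} (hz : z ^ 2 = 1)
    (hT : ∀ t ∈ pPrimeCore 2 L, z * t = t * z → t = 1)
    (hC : IsCharP 2 ↥(centralizer (zpowers z : Set L)))
    {J : Subgroup (L ⧸ pPrimeCore 2 L)} (hJ : IsComponent J) :
    ⁅J, zpowers (QuotientGroup.mk' (pPrimeCore 2 L) z)⁆ ≠ ⊥ := by
  intro hbot
  set π := QuotientGroup.mk' (pPrimeCore 2 L) with hπ
  have hπs : Function.Surjective π := QuotientGroup.mk_surjective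
  have hP : IsPGroup 2 (zpowers z) := by
    have hdvd : Nat.card (zpowers z) ∣ 2 ^ 1 := by
      rw [Nat.card_zpowers, pow_one]
      exact orderOf_dvd_of_pow_eq_one hz
    exact IsPGroup.of_card_dvd_pow hdvd
  have hker := coprime_ker_mk L 2
  have hmap := map_centralizer_eq π hπs hP hker
  set D := centralizer (zpowers z : Set L) with hD
  have hinj : Function.Injective (π.subgroupMap D) := by
    intro a b hab
    have h1 : π (a : L) = π (b : L) := congrArg Subtype.val hab
    have h2 : (a : L)⁻¹ * b ∈ pPrimeCore 2 L := by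
      have : π ((a : L)⁻¹ * b) = 1 := by
        rw [map_mul, map_inv, h1, inv_mul_cancel]
      exact (QuotientGroup.eq_one_iff _).mp this
    have h3 : z * ((a : L)⁻¹ * b) = ((a : L)⁻¹ * b) * z := by
      have h4 : ((a : L)⁻¹ * b) ∈ D := D.mul_mem (D.inv_mem a.2) b.2
      exact mem_centralizer_iff.mp h4 z (mem_zpowers z)
    have h5 := hT _ h2 h3
    apply Subtype.ext
    have h6 : (a : L)⁻¹ * b = 1 := h5
    exact (inv_mul_eq_one.mp h6)
  let e : D ≃* D.map π := MulEquiv.ofBijective (π.subgroupMap D) ⟨hinj, π.subgroupMap_surjective D⟩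
  have hX : IsCharP 2 ↥(D.map π) := IsCharP.of_equiv e hC
  have hJX : J ≤ D.map π := by
    rw [hmap, MonoidHom.map_zpowers, Subgroup.le_centralizer_iff]
    exact (commutator_eq_bot_iff_le_centralizer).mp (by rw [commutator_comm]; exact hbot)
  have hJ1 : IsComponent (J.subgroupOf (D.map π)) :=
    ⟨hJ.1.subgroupOf, (quasisimple_subgroupOf_iff hJX).mpr hJ.2⟩
  exact not_component_of_isCharP hX hJ1

/-- The layer of `L/O(L)` is trivial under the hypotheses above. -/
theorem layer_quot_eq_bot (hL : layer L = ⊥) {z : L} (hz : z ^ 2 = 1)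
    (hcomm : ∀ g : L, g * z * g⁻¹ * z⁻¹ ∈ centralizer (pPrimeCore 2 L : Set L))
    (hnc : ∀ J : Subgroup (L ⧸ pPrimeCore 2 L), IsComponent J →
      ⁅J, zpowers (QuotientGroup.mk' (pPrimeCore 2 L) z)⁆ ≠ ⊥) :
    layer (L ⧸ pPrimeCore 2 L) = ⊥ := by
  rw [layer, sSup_eq_bot]
  intro J hJ
  exfalso
  replace hJ : IsComponent J := hJ
  set π := QuotientGroup.mk' (pPrimeCore 2 L) with hπ
  have hπs : Function.Surjective π := QuotientGroup.mk_surjective
  set C := centralizer (pPrimeCore 2 L : Set L) with hC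
  have hTn := pPrimeCore_normal 2 L
  have hCn : C.Normal := by
    rw [hC]
    infer_instance
  have hCb : (C.map π).Normal := hCn.map π hπs
  rcases component_le_or_commutator_eq_bot hJ hCb.isSubnormal with hle | hcb
  · -- `J ≤ C̄`: lift `J` to a component of `L`
    let W : Subgroup L := J.comap π
    let P : Subgroup L := W ⊓ C
    have hPsub : P.IsSubnormal := by
      refine IsSubnormal.step P W inf_le_left (hJ.1.comap π) ?_
      constructor
      intro n hn g
      rw [mem_subgroupOf] at hn ⊢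
      exact ⟨W.mul_mem (W.mul_mem g.2 hn.1) (W.inv_mem g.2), hCn.conj_mem _ hn.2 g⟩
    let f : P →* J := (π.comp P.subtype).codRestrict J (fun x => x.2.1)
    have hf : Function.Surjective f := by
      rintro ⟨j, hj⟩
      obtain ⟨c, hc, rfl⟩ := hle hj
      refine ⟨⟨c, ⟨hj, hc⟩⟩, ?_⟩
      apply Subtype.ext
      rfl
    have hker : f.ker ≤ center P := by
      intro x hx
      rw [mem_center_iff]
      intro g
      have h1 : π (x : L) = 1 := by
        have := congrArg Subtype.val (MonoidHom.mem_ker.mp hx)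
        exact this
      have h2 : (x : L) ∈ pPrimeCore 2 L := (QuotientGroup.eq_one_iff _).mp h1
      have h3 := mem_centralizer_iff.mp g.2.2 _ h2
      apply Subtype.ext
      exact h3.symm
    obtain ⟨-, hq⟩ := Cfsg.Agent.Lib.Components.Central.commutator_quasisimple_of_central_ker f hf
      hker hJ.2
    have hcomp : IsComponent (commutator P) := ⟨(show (commutator P).Normal from inferInstance).isSubnormal, hq⟩
    have hcomp' := (isComponent_iff_map_subtype hPsub (commutator P)).mp hcomp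
    have h1 := le_layer_of_isComponent hcomp'
    rw [hL, le_bot_iff] at h1
    exact ne_bot_of_quasisimple hcomp'.2 h1
  · -- `J` centralizes `C̄`, hence `z̄`
    apply hnc J hJ
    apply commutator_eq_bot_of_perfect (commutator_self_of_quasisimple hJ.2)
    have h1 : ⁅J, zpowers (π z)⁆ ≤ C.map π := by
      rw [commutator_le]
      intro j hj x hx
      obtain ⟨g, rfl⟩ := hπs j
      obtain ⟨i, rfl⟩ := mem_zpowers_iff.mp hx
      have hzi : (π z) ^ (i : ℤ) = 1 ∨ (π z) ^ (i : ℤ) = π z := by
        have hz' : (π z) ^ (2 : ℤ) = 1 := by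
          rw [← map_zpow]
          have : z ^ (2 : ℤ) = 1 := by exact_mod_cast hz
          rw [this, map_one]
        rcases Int.even_or_odd i with ⟨j, rfl⟩ | ⟨j, rfl⟩
        · left
          rw [← two_mul, zpow_mul, hz', one_zpow]
        · right
          rw [zpow_add, zpow_mul, hz', one_zpow, one_mul, zpow_one]
      rcases hzi with h | h
      · rw [h, commutatorElement_one_right]
        exact one_mem _
      · rw [h, commutatorElement_def]
        exact ⟨g * z * g⁻¹ * z⁻¹, hcomm g, by simp⟩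
    rw [eq_bot_iff, ← hcb, commutator_comm]
    exact commutator_mono le_rfl h1

/-- A trivial layer of `L/O(L)` means `L` is 2-constrained. -/
theorem constrained_of_layer (h : layer (L ⧸ pPrimeCore 2 L) = ⊥) : IsPConstrained 2 L := by
  rw [isPConstrained_iff]
  have hO : pPrimeCore 2 (L ⧸ pPrimeCore 2 L) = ⊥ := pPrimeCore_quotient_eq_bot
  have hF := Cfsg.Agent.Lib.LBalance.Basic.fitting_le_pCore hO
  have h2 : generalizedFittingSubgroup (L ⧸ pPrimeCore 2 L) = pCore 2 (L ⧸ pPrimeCore 2 L) := by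
    rw [generalizedFittingSubgroup, h, bot_sup_eq]
    exact le_antisymm hF (pCore_le_fittingSubgroup 2)
  have h3 := Cfsg.Agent.Lib.Components.GenFitting.centralizer_generalizedFitting_le
    (G := L ⧸ pPrimeCore 2 L)
  rw [h2] at h3
  exact h3

/-- `F*(K) = O₂(K)` means `K` has characteristic 2. -/
theorem isCharP_of_genFit (h : generalizedFittingSubgroup L = pCore 2 L) : IsCharP 2 L := by
  have h3 := Cfsg.Agent.Lib.Components.GenFitting.centralizer_generalizedFitting_le (G := L)
  rw [h] at h3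
  exact h3

end Quot

section Main

open Cfsg.Agent.Lib.EqFun.Basic Cfsg.Agent.Lib.CoreFun.Basic

variable {G : Type u} [Group G] [Finite G]

local instance hprime2' : Fact (Nat.Prime 2) := ⟨Nat.prime_two⟩

theorem mem_cen_zpowers {H : Type*} [Group H] {a x : H} :
    x ∈ centralizer (zpowers a : Set H) ↔ a * x = x * a := by
  rw [mem_centralizer_iff]
  constructor
  · intro h
    exact h a (mem_zpowers a)
  · intro h t ht
    obtain ⟨i, rfl⟩ := mem_zpowers_iff.mp ht
    exact ((show Commute a x from h).zpow_left i).eq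

theorem mem_cen_sing {a x : G} : x ∈ centralizer ({a} : Set G) ↔ a * x = x * a := by
  rw [mem_centralizer_iff]
  constructor
  · intro h
    exact h a rfl
  · intro h t ht
    have ht' : t = a := ht
    rw [ht']
    exact h

/-- `C_{C(z)}(y)` and `C_{C(y)}(z)` are isomorphic. -/
def swapEquiv {y z : G} (hy : y ∈ centralizer ({z} : Set G)) (hz : z ∈ centralizer ({y} : Set G)) :
    ↥(centralizer (zpowers (⟨y, hy⟩ : centralizer ({z} : Set G)) : Set (centralizer ({z} : Set G)))) ≃*
      ↥(centralizer (zpowers (⟨z, hz⟩ : centralizer ({y} : Set G)) : Set (centralizer ({y} : Set G)))) where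
  toFun x := ⟨⟨x.1.1, mem_cen_sing.mpr (congrArg Subtype.val (mem_cen_zpowers.mp x.2))⟩,
    mem_cen_zpowers.mpr (Subtype.ext (mem_cen_sing.mp x.1.2))⟩
  invFun x := ⟨⟨x.1.1, mem_cen_sing.mpr (congrArg Subtype.val (mem_cen_zpowers.mp x.2))⟩,
    mem_cen_zpowers.mpr (Subtype.ext (mem_cen_sing.mp x.1.2))⟩
  left_inv _ := rfl
  right_inv _ := rfl
  map_mul' _ _ := rfl

theorem s2924_of (hS : SSFTOn G 2) (Y : Subgroup G) (hY : IsElementaryAbelian 2 Y)
    (h8 : 2 ^ 3 ≤ Nat.card Y)
    (hE : ∀ x ∈ Y, x ≠ 1 → layer ↥(centralizer ({x} : Set G)) = ⊥) {z : G} (hzY : z ∈ Y)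
    (hz1 : z ≠ 1)
    (hzF : generalizedFittingSubgroup ↥(centralizer ({z} : Set G)) =
      pCore 2 ↥(centralizer ({z} : Set G))) :
    Odd (Nat.card ↥(W (th (G := G)) Y)) ∧
      normalizer (Y : Set G) ≤ normalizer (W (th (G := G)) Y : Set G) := by
  have hEA : EA 2 Y := EA.ofIs hY
  have hz2 : z ^ 2 = 1 := hEA.exp z hzY
  have hzz : z * z = 1 := by rw [← pow_two]; exact hz2
  have hzinv : z⁻¹ = z := inv_eq_of_mul_eq_one_left hzz
  have hK : IsCharP 2 ↥(centralizer ({z} : Set G)) := isCharP_of_genFit hzF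
  have hO : pPrimeCore 2 ↥(centralizer ({z} : Set G)) = ⊥ := pPrimeCore_eq_bot_of_isCharP hK
  have hKc : IsPConstrained 2 ↥(centralizer ({z} : Set G)) :=
    (isPConstrained_iff_of_bot hO).mpr hK
  have hthz : th z = ⊥ := by
    change (pPrimeCore 2 ↥(centralizer ({z} : Set G))).map _ = ⊥
    rw [hO, Subgroup.map_bot]
  have h2el : ∀ y ∈ Y, ∃ k : ℕ, y ^ 2 ^ k = 1 := fun y hy => ⟨1, by simpa using hEA.exp y hy⟩
  -- `z` acts without fixed points
  have hfix : ∀ y ∈ Y, ∀ t ∈ th y, z * t = t * z → t = 1 := by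
    intro y hy t ht hzt
    have hyz : y * z = z * y := hEA.comm y hy z hzY
    have h1 := centralizerPPrimeCore_inf_le (p := 2) (h2el y hy) hyz hKc
    have h2 : t ∈ th z := h1 ⟨ht, mem_cen_sing.mpr hzt⟩
    rw [hthz] at h2
    exact h2
  have hzC : ∀ y ∈ Y, z ∈ centralizer ({y} : Set G) := fun y hy =>
    mem_cen_sing.mpr (hEA.comm y hy z hzY)
  have hinv : ∀ y ∈ Y, ∀ t ∈ th y, z * t * z⁻¹ = t⁻¹ := by
    intro y hy
    exact Cfsg.Agent.Lib.LocalStruct.SCNOdd.inverts_of_fpf hzz
      (fun w hw => conj_mem_centralizerPPrimeCore (hzC y hy) hw) (hfix y hy)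
  -- `C(y)` is 2-constrained
  have hcons : ∀ y ∈ Y, y ≠ 1 → IsPConstrained 2 ↥(centralizer ({y} : Set G)) := by
    intro y hy hy1
    set L := centralizer ({y} : Set G) with hL
    let z' : L := ⟨z, hzC y hy⟩
    have hz'2 : z' ^ 2 = 1 := Subtype.ext (by simpa using hz2)
    have hmemth : ∀ t ∈ pPrimeCore 2 L, (t : G) ∈ th y := fun t ht => ⟨t, ht, rfl⟩
    have hcomm : ∀ g : L, g * z' * g⁻¹ * z'⁻¹ ∈ centralizer (pPrimeCore 2 L : Set L) := by
      intro g
      rw [mem_centralizer_iff]
      intro t ht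
      apply Subtype.ext
      have ht' := hmemth t ht
      have hg : (g : G)⁻¹ * t * g ∈ th y := by
        have := conj_mem_centralizerPPrimeCore (L.inv_mem g.2) ht'
        simpa using this
      have h1 : z * ((g : G)⁻¹ * t * g)⁻¹ * z⁻¹ = (g : G)⁻¹ * t * g := by
        have := hinv y hy _ ((th y).inv_mem hg)
        simpa using this
      have h2 : z * (t : G) * z⁻¹ = (t : G)⁻¹ := hinv y hy t ht'
      have h3 : z⁻¹ * (t : G) = (t : G)⁻¹ * z⁻¹ := by
        rw [hzinv]
        calc z * (t : G) = z * t * z⁻¹ * z := by group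
          _ = (t : G)⁻¹ * z := by rw [h2]
      simp only [Subgroup.coe_mul, InvMemClass.coe_inv]
      change (t : G) * ((g : G) * z * (g : G)⁻¹ * z⁻¹) = ((g : G) * z * (g : G)⁻¹ * z⁻¹) * t
      calc (t : G) * ((g : G) * z * (g : G)⁻¹ * z⁻¹)
          = g * ((g : G)⁻¹ * t * g) * z * (g : G)⁻¹ * z⁻¹ := by group
        _ = g * (z * ((g : G)⁻¹ * t * g)⁻¹ * z⁻¹) * z * (g : G)⁻¹ * z⁻¹ := by rw [h1]
        _ = g * z * (g : G)⁻¹ * (t : G)⁻¹ * z⁻¹ := by group
        _ = g * z * (g : G)⁻¹ * ((t : G)⁻¹ * z⁻¹) := by group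
        _ = g * z * (g : G)⁻¹ * (z⁻¹ * t) := by rw [h3]
        _ = _ := by group
    have hT : ∀ t ∈ pPrimeCore 2 L, z' * t = t * z' → t = 1 := by
      intro t ht h
      apply Subtype.ext
      exact hfix y hy t (hmemth t ht) (congrArg Subtype.val h)
    have hyK : y ∈ centralizer ({z} : Set G) := mem_cen_sing.mpr (hEA.comm z hzY y hy)
    have hR : IsPGroup 2 (zpowers (⟨y, hyK⟩ : centralizer ({z} : Set G))) := by
      have hdvd : Nat.card (zpowers (⟨y, hyK⟩ : centralizer ({z} : Set G))) ∣ 2 ^ 1 := by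
        rw [Nat.card_zpowers, pow_one]
        apply orderOf_dvd_of_pow_eq_one
        exact Subtype.ext (by simpa using hEA.exp y hy)
      exact IsPGroup.of_card_dvd_pow hdvd
    have hC : IsCharP 2 ↥(centralizer (zpowers z' : Set L)) :=
      IsCharP.of_equiv (swapEquiv hyK (hzC y hy)) (isCharP_centralizer hK hR)
    exact constrained_of_layer (layer_quot_eq_bot (hE y hy hy1) hz'2 hcomm
      (fun J hJ => commutator_ne_bot hz'2 hT hC hJ))
  -- balance and the signalizer functor theorem
  have hsolv : ∀ a ∈ Y, a ≠ 1 → Group.IsSolvable ↥(th a) := by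
    intro a ha _
    apply Group.isSolvable_of_comm
    intro u v
    apply Subtype.ext
    have h1 := hinv a ha ((u : G) * v) ((th a).mul_mem u.2 v.2)
    have h2 := hinv a ha u u.2
    have h3 := hinv a ha v v.2
    have h4 : z * ((u : G) * v) * z⁻¹ = (z * u * z⁻¹) * (z * v * z⁻¹) := by group
    have h5 : ((u : G) * v)⁻¹ = (u : G)⁻¹ * (v : G)⁻¹ := by
      have h6 := h4
      rw [h2, h3] at h6
      exact h1.symm.trans h6
    have h7 : (v : G)⁻¹ * (u : G)⁻¹ = (u : G)⁻¹ * (v : G)⁻¹ := by
      rw [← mul_inv_rev]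
      exact h5
    have h8' : ((u : G) * v) = (v : G) * u := by
      have h9 := congrArg (·⁻¹) h7
      simpa using h9
    simpa using h8'
  have hS' := hS Y hEA.comm hEA.exp h8 (th (G := G))
    (fun a _ _ => centralizerPPrimeCore_le_centralizer a)
    (fun a _ _ => (Nat.Prime.coprime_iff_not_dvd Nat.prime_two).mp
      (coprime_card_centralizerPPrimeCore (p := 2) a).symm)
    (fun a ha _ b hb x hx => conj_mem_centralizerPPrimeCore
      (mem_cen_sing.mpr (hEA.comm a ha b hb)) hx)
    hsolv
    (fun a ha _ b hb hb1 => centralizerPPrimeCore_inf_le (h2el a ha) (hEA.comm a ha b hb)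
      (hcons b hb hb1))
  refine ⟨Nat.not_even_iff_odd.mp (fun h => hS'.1 h.two_dvd), ?_⟩
  intro g hg
  apply mem_normalizer_fintype
  intro n hn
  have h1 : W (th (G := G)) Y ≤ (W (th (G := G)) Y).comap (MulAut.conj g).toMonoidHom := by
    apply iSup_le
    rintro ⟨b, hb, hb1⟩ t ht
    have h2 : g * b * g⁻¹ ∈ Y := (mem_normalizer_iff.mp hg b).mp hb
    have h3 : g * b * g⁻¹ ≠ 1 := by
      intro h
      apply hb1
      have := congrArg (fun x => g⁻¹ * x * g) h
      simpa [mul_assoc] using this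
    exact le_W _ h2 h3 (Cfsg.Agent.Lib.Signal.BalanceFor.conj_mem_centralizerCore ht)
  exact h1 hn

end Main

end Cfsg.Agent.Lib.CoreFun.NoLayer
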